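import Cfsg.Agent.H572.RV.Cen

/-!
# `π`-groups of linear transformations of dimension at most two are nilpotent (`2, p ∉ π`) (helper22)
-/

set_option autoImplicit false

namespace Cfsg.Agent.H22.DPU

open Module Cfsg Cfsg.Agent.H167.OP Cfsg.Agent.H170.HL Cfsg.Agent.H988.CPi Cfsg.Agent.H560.HallKey
  Cfsg.Agent.H553.OddHall Cfsg.Agent.H572.RV

/-- `CenH t` for all primes implies nilpotency -/
theorem nil_of_cenH {K : Type*} [Group K] [Finite K] (hsol : ∀ L : Subgroup K, Group.IsSolvable L)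
    (h : ∀ t : ℕ, t.Prime → t ∣ Nat.card K → ∀ L : Subgroup K, CenH t L) : Group.IsNilpotent K := by
  classical
  have key : ∀ (t : ℕ) (_ : Fact t.Prime) (P : Sylow t K), (P : Subgroup K).Normal := by
    intro t ht P
    by_cases htd : t ∣ Nat.card K
    · obtain ⟨L, hL⟩ : ∃ L : Subgroup K, L = Subgroup.closure {x : K | ∃ k : ℕ, x ^ t ^ k = 1} := ⟨_, rfl⟩
      have hgen : Subgroup.closure {x : L | ∃ k : ℕ, x ^ t ^ k = 1} = ⊤ := by
        subst hL
        rw [eq_top_iff, ← Subgroup.closure_closure_coe_preimage (k := {x : K | ∃ k : ℕ, x ^ t ^ k = 1})]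
        apply Subgroup.closure_mono
        rintro ⟨w, hw⟩ ⟨k, hk⟩
        exact ⟨k, Subtype.ext hk⟩
      have h1 : IsPGroup t L := isPGroup_of_cenH (hsol L) (h t ht.out htd L) hgen
      have h2 : (P : Subgroup K) ≤ L := by
        intro x hx
        obtain ⟨k, hk⟩ := P.isPGroup' ⟨x, hx⟩
        rw [hL]
        exact Subgroup.subset_closure ⟨k, congrArg Subtype.val hk⟩
      have h3 : L = (P : Subgroup K) := P.is_maximal' h1 h2
      rw [← h3, hL]
      refine ⟨fun n hn g => ?_⟩
      have h4 : (Subgroup.closure {x : K | ∃ k : ℕ, x ^ t ^ k = 1}).map (MulAut.conj g).toMonoidHom ≤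
          Subgroup.closure {x : K | ∃ k : ℕ, x ^ t ^ k = 1} := by
        rw [MonoidHom.map_closure, Subgroup.closure_le]
        rintro _ ⟨x, ⟨k, hk⟩, rfl⟩
        refine Subgroup.subset_closure ⟨k, ?_⟩
        rw [← map_pow, hk, map_one]
      exact h4 ⟨n, hn, rfl⟩
    · have h1 : (P : Subgroup K) = ⊥ := by
        rw [← Subgroup.card_eq_one]
        obtain ⟨n, hn⟩ := IsPGroup.iff_card.mp P.isPGroup'
        rcases Nat.eq_zero_or_pos n with h0 | h0
        · rw [hn, h0, pow_zero]
        · exfalso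
          apply htd
          exact (dvd_pow_self t h0.ne').trans (hn ▸ Subgroup.card_subgroup_dvd_card (P : Subgroup K))
      rw [h1]
      infer_instance
  exact ((Group.isNilpotent_of_finite_tfae (G := K)).out 0 3).mpr key

variable {F : Type*} [Field F] {V : Type*} [AddCommGroup V] [Module F V] [FiniteDimensional F V]
  {K : Type*} [Group K] [Finite K] {t : ℕ} {ρ : Representation F K V}

/-- `t`-elements centralise the `r`-subgroups which they normalise -/
theorem cenH_two (hinj : Function.Injective ρ) (hd : finrank F V ≤ 2) (ht : t.Prime) (hto : Odd t)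
    {L : Subgroup K} (hL : PiN (Pi0 F) (Nat.card L)) : CenH t L := by
  classical
  intro y hy r hrp hrt R hR hn
  by_contra hc
  have hrf : Fact r.Prime := ⟨hrp⟩
  let B : Subgroup K := R.map L.subtype
  have hB : ∀ d ∈ B, ∃ k : ℕ, d ^ r ^ k = 1 := by
    rintro _ ⟨x, hx, rfl⟩
    obtain ⟨k, hk⟩ := hR ⟨x, hx⟩
    exact ⟨k, congrArg (fun z : R => ((z : L) : K)) hk⟩
  have hy' : ∃ k : ℕ, (y : K) ^ t ^ k = 1 := by
    obtain ⟨k, hk⟩ := hy
    exact ⟨k, congrArg Subtype.val hk⟩
  have hn' : Nrm (y : K) B := by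
    rintro _ ⟨x, hx, rfl⟩
    exact ⟨_, hn x hx, rfl⟩
  have hc' : ¬ Cen (y : K) B := by
    intro h
    apply hc
    intro d hd
    exact Subtype.ext (h d ⟨d, hd, rfl⟩)
  obtain ⟨D, hDB, hD⟩ := exists_minD hrp ht hrt hB hy' hn' hc'
  have hDL : D ≤ L := hDB.trans (Subgroup.map_subtype_le _)
  have hDb : finrank F (CV ρ D) ≤ 2 := (Submodule.finrank_le _).trans hd
  have ht2 := ht.two_le
  have ht3 : 3 ≤ t := by
    rcases hto with ⟨k, rfl⟩
    omega
  have hDπ : PiN (Pi0 F) (Nat.card D) := hL.of_dvd (Subgroup.card_dvd_of_le hDL)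
  have hDo := piN_Pi0 Nat.card_pos.ne' hDπ
  have hDr : r ∈ Pi0 F := by
    refine hDπ r hrp ?_
    have h1 : IsPGroup r D := hD.isPGroup
    obtain ⟨n, hn⟩ := IsPGroup.iff_card.mp h1
    rw [hn]
    refine dvd_pow_self r ?_
    rintro rfl
    rw [pow_zero, Subgroup.card_eq_one] at hn
    apply hD.ncen
    intro d hd
    rw [hn, Subgroup.mem_bot] at hd
    rw [hd, mul_one, one_mul]
  by_cases hab : ∀ a ∈ D, ∀ b ∈ D, a * b = b * a
  · obtain ⟨d, hd, hne⟩ : ∃ d ∈ D, (y : K) * d ≠ d * y := by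
      by_contra hcon
      push Not at hcon
      exact hD.ncen hcon
    have h1 := weights ρ ht hy' hDo.2 hab hD.nrm ⟨d, hd, fun h0 => hne (hinj h0)⟩
    omega
  · push Not at hab
    have h1 : r ≠ 2 := by
      rintro rfl
      exact absurd hDr.1 (by decide)
    have h2 : t ≠ 2 := by
      rintro rfl
      exact absurd hto (by decide)
    have := Cfsg.Agent.H167.OP.beta ρ hinj hD h1 h2 hDr.2 hab
    change 2 * t - 1 ≤ finrank F (CV ρ D) at this
    omega

/-- **`π`-groups in dimension at most two are nilpotent.** -/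
theorem nil_two (hinj : Function.Injective ρ) (hd : finrank F V ≤ 2) (hK : PiN (Pi0 F) (Nat.card K)) :
    Group.IsNilpotent K := by
  refine nil_of_cenH (fun L => solvable_of_pi two_notMem_Pi0 (hK.of_dvd (Subgroup.card_subgroup_dvd_card L))) ?_
  intro t ht htd L
  exact cenH_two hinj hd ht (hK t ht htd).1 (hK.of_dvd (Subgroup.card_subgroup_dvd_card L))

end Cfsg.Agent.H22.DPU
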